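import Cfsg.Agent.Perm.Kf7
import Cfsg.Agent.Ab2.IF2
import Cfsg.Agent.S0200

/-! General lemmas on doubly transitive actions on invariant subsets. -/

set_option autoImplicit false
set_option linter.unusedSectionVars false

namespace CF.T2s

open MulAction Subgroup Cfsg CF.BG CF.GW CF.Small CF.Kf
open CF.Ab2 hiding Gd

variable {G Ω : Type*} [Group G] [Finite G] [MulAction G Ω] [Finite Ω] {R U P X : Subgroup G} {Δ : Set Ω}
  {T : Set G} {a b x y : Ω} {g k t σ τ : G}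

variable (Ω) in
/-- the fixed points of a subgroup -/
def Fx (U : Subgroup G) : Set Ω := {x | U ≤ stabilizer G x}

theorem fx_fix (h : x ∈ Fx Ω U) (hg : g ∈ U) : g • x = x := h hg

theorem mem_Fx : x ∈ Fx Ω U ↔ ∀ g ∈ U, g • x = x := Iff.rfl

theorem fx_cj (h : x ∈ Fx Ω U) (g : G) : g • x ∈ Fx Ω (cj g U) := fun k hk => by
  obtain ⟨u, hu, rfl⟩ := mem_cj_iff.1 hk
  exact conj_fix (fx_fix h hu) g

theorem fx_norm (h : x ∈ Fx Ω U) (hg : g ∈ 𝐍 U) : g • x ∈ Fx Ω U := cj_of_norm hg ▸ fx_cj h g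

theorem fx_anti (h : x ∈ Fx Ω U) (l : P ≤ U) : x ∈ Fx Ω P := l.trans h

theorem ncard_Fx (g : G) (U : Subgroup G) : (Fx Ω (cj g U)).ncard = (Fx Ω U).ncard := by
  symm
  exact Set.ncard_congr (fun x _ => g • x) (fun _ h => fx_cj h g) (fun _ _ _ _ => smul_left_cancel g) fun y hy =>
    ⟨g⁻¹ • y, by simpa only [cj_inv_cj] using fx_cj hy g⁻¹, smul_inv_smul g y⟩

theorem Fx_zp : Fx Ω (zpowers t) = fixedBy Ω t := Set.ext fun _ => zpowers_le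

theorem ncard_fb (g t : G) : (fixedBy Ω (g * t * g⁻¹)).ncard = (fixedBy Ω t).ncard := by
  rw [← Fx_zp, ← Fx_zp, ← cj_zpowers, ncard_Fx]

theorem le_stab2 : U ≤ stab2 G x y ↔ x ∈ Fx Ω U ∧ y ∈ Fx Ω U := le_inf_iff

theorem cj_stab2 (g : G) (a b : Ω) : cj g (stab2 G a b) = stab2 G (g • a) (g • b) := by
  ext k
  rw [mem_cj]
  refine ⟨fun h => by simpa [mul_assoc] using conj_stab h g, fun h => by simpa using conj_stab h g⁻¹⟩

theorem conj_back (e : σ • g • x = g • y) : (g⁻¹ * σ * g) • x = y := by simp [mul_smul, e]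

/-- Witt's lemma -/
theorem witt (h : TT R Δ) (ha : a ∈ Δ) (hb : b ∈ Δ) (hab : a ≠ b) (l : U ≤ stab2 G a b)
    (c : ∀ g ∈ R, cj g U ≤ stab2 G a b → ∃ k ∈ R, k ∈ stab2 G a b ∧ cj k U = cj g U) :
    TT (R ⊓ 𝐍 U) (Δ ∩ Fx Ω U) := by
  have key : ∀ x ∈ Δ ∩ Fx Ω U, ∀ y ∈ Δ ∩ Fx Ω U, x ≠ y → ∃ g ∈ R ⊓ 𝐍 U, g • a = x ∧ g • b = y := by
    intro x hx y hy n
    obtain ⟨g, hg, rfl, rfl⟩ := h.tr a ha b hb x hx.1 y hy.1 hab n
    obtain ⟨k, hk, k2, e⟩ := c g⁻¹ (inv_mem hg) (le_stab2.2 ⟨by simpa using fx_cj hx.2 g⁻¹, by simpa using fx_cj hy.2 g⁻¹⟩)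
    refine ⟨g * k, ⟨mul_mem hg hk, cj_eq_self.1 (by rw [← cj_cj, e, cj_cj_inv])⟩, ?_, ?_⟩
    · rw [mul_smul, k2.1.out]
    · rw [mul_smul, k2.2.out]
  refine ⟨fun g hg x hx => ⟨h.inv g hg.1 x hx.1, fx_norm hx.2 hg.2⟩, fun x hx y hy x' hx' y' hy' n n' => ?_⟩
  obtain ⟨g, hg, rfl, rfl⟩ := key x hx y hy n
  obtain ⟨g', hg', rfl, rfl⟩ := key x' hx' y' hy' n'
  exact ⟨g' * g⁻¹, mul_mem hg' (inv_mem hg), by simp [mul_smul], by simp [mul_smul]⟩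

theorem norm_zp (i : Iv t) : 𝐍 (zpowers t) = 𝐂₁ t := by
  refine le_antisymm (fun g hg => ?_) (cent1_le_norm_zp t)
  rcases i.mem_zpowers.1 (conj_mem_of_norm hg (mem_zpowers t)) with e | e
  · exact absurd e (i.conj g).ne_one
  · exact mem_cent1.2 (mul_inv_eq_iff_eq_mul.1 e)

/-- fixed points of a `p`-group on an invariant set -/
theorem pfix {p : ℕ} (hp : p.Prime) (k : PiGrp {p} P) (inv : ∀ g ∈ P, ∀ x ∈ Δ, g • x ∈ Δ) :
    Δ.ncard ≡ (Δ ∩ Fx Ω P).ncard [MOD p] := by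
  letI : MulAction P Δ :=
    { smul g x := ⟨(g : G) • (x : Ω), inv g g.2 x x.2⟩
      one_smul x := Subtype.ext (one_smul G _)
      mul_smul g k x := Subtype.ext (mul_smul (g : G) k _) }
  haveI := Fact.mk hp
  have := k.isPGroup.card_modEq_card_fixedPoints Δ
  rw [Nat.card_coe_set_eq, Nat.card_coe_set_eq, ← Set.ncard_image_of_injective _ Subtype.val_injective] at this
  suffices e : Subtype.val '' fixedPoints P Δ = Δ ∩ Fx Ω P from e ▸ this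
  refine Set.ext fun x => ⟨?_, fun h => ⟨⟨x, h.1⟩, fun g => Subtype.ext (fx_fix h.2 g.2), rfl⟩⟩
  rintro ⟨y, hy, rfl⟩
  exact ⟨y.2, fun g hg => congrArg Subtype.val (hy ⟨g, hg⟩)⟩

theorem exfix {p : ℕ} (hp : p.Prime) (k : PiGrp {p} P) (inv : ∀ g ∈ P, ∀ x ∈ Δ, g • x ∈ Δ) (n : ¬ p ∣ Δ.ncard) :
    ∃ x ∈ Δ, x ∈ Fx Ω P := by
  have := pfix hp k inv
  exact Set.nonempty_of_ncard_ne_zero (s := Δ ∩ Fx Ω P) fun e => n (by
    rw [e] at this; exact (Nat.modEq_zero_iff_dvd).1 this)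

theorem exfix2 (k : P2 P) (inv : ∀ g ∈ P, ∀ x ∈ Δ, g • x ∈ Δ) (o : Odd Δ.ncard) : ∃ x ∈ Δ, x ∈ Fx Ω P :=
  exfix p2 k inv o.not_two_dvd_nat

theorem par2 (k : P2 P) : Odd (Fx Ω P).ncard ↔ Odd (Nat.card Ω) := by
  have := pfix (Δ := (Set.univ : Set Ω)) p2 k fun _ _ _ _ => trivial
  rw [Set.univ_inter, Set.ncard_univ] at this
  rw [Nat.odd_iff, Nat.odd_iff, this]

theorem par1 (i : Iv t) : Odd (fixedBy Ω t).ncard ↔ Odd (Nat.card Ω) := Fx_zp (Ω := Ω) (t := t) ▸ par2 i.piGrp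

/-- an element of order at most two on a set of even size with a fixed point has a second one -/
theorem second (inv : ∀ x ∈ Δ, g • x ∈ Δ) (sq : ∀ x ∈ Δ, g • g • x = x) (e : ¬ Odd Δ.ncard) (hx : x ∈ Δ)
    (f : g • x = x) : ∃ y ∈ Δ, y ≠ x ∧ g • y = y := by
  by_contra! k
  have := par (Set.toFinite Δ) (g • ·) inv sq
  rw [show {x ∈ Δ | g • x = x} = {x} from Set.ext fun y => ⟨fun h => by_contra fun n => k y h.1 n h.2,
    fun h => h ▸ ⟨hx, f⟩⟩, Set.ncard_singleton] at this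
  exact e (Nat.odd_iff.2 this)

/-- counting elements with a unique fixed point, transitive version -/
theorem dcle (inv : ∀ g ∈ R, ∀ x ∈ Δ, g • x ∈ Δ) (ha : a ∈ Δ) (tr : ∀ x ∈ Δ, ∃ g ∈ R, g • a = x) (two : 2 ≤ Δ.ncard)
    (hR : T ⊆ R) (hT : ∀ g ∈ R, ∀ σ ∈ T, g * σ * g⁻¹ ∈ T) (h1 : ∀ σ ∈ T, {x ∈ Δ | σ • x = x}.ncard = 1) {m : ℕ}
    (hm : ∀ y ∈ Δ, y ≠ a → {σ ∈ T | σ • a = y}.ncard ≤ m) : {σ ∈ T | σ • a = a}.ncard ≤ m := by
  classical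
  have fT := Set.toFinite T
  have fD := Set.toFinite Δ
  have s : ∀ {A : Set G} (hA : A.Finite) {k : ℕ} {φ : G → ℕ}, (∀ σ ∈ A, φ σ = k) →
      ∑ σ ∈ hA.toFinset, φ σ = A.ncard * k := fun hA k φ e => by
    rw [Finset.sum_const_nat (m := k) fun σ hσ => e σ (hA.mem_toFinset.1 hσ), Set.ncard_eq_toFinset_card _ hA]
  have e1 := sum_ncard T Δ fT fD fun σ y => σ • a = y
  rw [s fT (k := 1) fun σ hσ => Set.ncard_eq_one.2 ⟨σ • a, Set.ext fun y =>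
    ⟨fun e => e.2.symm, fun e => by rw [e]; exact ⟨inv σ (hR hσ) a ha, rfl⟩⟩⟩, mul_one,
    ← Finset.add_sum_erase _ _ (fD.mem_toFinset.2 ha)] at e1
  have e3 := Finset.sum_le_card_nsmul (fD.toFinset.erase a) (fun y => {σ ∈ T | σ • a = y}.ncard) m fun y hy =>
    hm y (fD.mem_toFinset.1 (Finset.mem_of_mem_erase hy)) (Finset.ne_of_mem_erase hy)
  rw [Finset.card_erase_of_mem (fD.mem_toFinset.2 ha), ← Set.ncard_eq_toFinset_card Δ fD, smul_eq_mul] at e3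
  have e2 := sum_ncard T Δ fT fD fun σ y => σ • y = y
  rw [s fT h1, sum_two fD ha _ (k := {σ ∈ T | σ • a = a}.ncard) fun y hy n => by
      obtain ⟨g, hg, e1⟩ := tr y hy
      simpa [e1] using ncard_conj hT hg a a a a] at e2
  exact Nat.le_of_mul_le_mul_left (show (Δ.ncard - 1) * _ ≤ (Δ.ncard - 1) * m by omega) (by omega)

/-- the dihedral decomposition -/
theorem dih (h1 : σ * σ = 1) (h2 : τ * τ = 1) : ∃ u ∈ zpowers (σ * τ), ∃ v ∈ zpowers (σ * τ), E2 u ∧ Eo v ∧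
    τ * u * τ⁻¹ = u⁻¹ ∧ σ = v * (u * τ) * v⁻¹ := by
  obtain ⟨u, w, hu, hw, pu, pw, e⟩ := exists_piPart {2} (σ * τ)
  obtain ⟨n, hn⟩ := mem_zpowers_sq (eo_iff.2 pw)
  have i : Inv τ (zpowers (σ * τ)) := inv_zpowers (by
    rw [mul_inv_rev, inv_eq_of_mul_eq_one_right h1, inv_eq_of_mul_eq_one_right h2, mul_assoc, mul_assoc, h2, mul_one])
  have hv : w ^ n ∈ zpowers (σ * τ) := zpow_mem hw n
  refine ⟨u, hu, w ^ n, hv, pu, pw.of_mem_zpowers (zpow_mem_zpowers _ _), i u hu, ?_⟩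
  have c := (abel_zpowers (σ * τ)).mul_comm hu hv
  have e2 : w ^ n * w ^ n = w := by rw [← (Commute.refl w).mul_zpow]; exact hn
  have e3 := i _ hv
  have e4 : τ * (w ^ n)⁻¹ = w ^ n * τ := by
    rw [← e3, ← mul_assoc, ← mul_assoc, h2, one_mul, inv_eq_of_mul_eq_one_right h2]
  calc σ = σ * τ * τ := by rw [mul_assoc, h2, mul_one]
    _ = u * (w ^ n * w ^ n) * τ := by rw [← e, e2]
    _ = w ^ n * u * (w ^ n * τ) := by rw [← mul_assoc, c, mul_assoc]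
    _ = _ := by rw [← e4]; simp only [mul_assoc]

/-- a Baer–Suzuki criterion -/
theorem bsl {j : ℕ} (inv : ∀ g ∈ X, ∀ x ∈ Δ, g • x ∈ Δ) (c : Δ.ncard = 2 ^ j) (ht : t ∈ X) (i : Iv t)
    (u : ∀ g ∈ X, ∀ x ∈ Δ, t • x = (g * t * g⁻¹) • x → g * t * g⁻¹ = t) : t ∈ 𝐎 {2} X := by
  by_contra h1
  obtain ⟨k, k1, o, e⟩ := Cfsg.Agent.S0200.result (⟨t, ht⟩ : X) (by rw [orderOf_mk]; exact i)
    fun N hN pN hm => h1 (le_O (normal_iff_map_subtype.1 hN)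
      ((piGrp_of_isPGroup Nat.prime_two pN).map _) ⟨_, hm, rfl⟩)
  have e' : t * k * t⁻¹ = (k : G)⁻¹ := congrArg Subtype.val e
  rw [← orderOf_coe] at o
  obtain ⟨p, hp, d⟩ := exists_prime_dvd_card (H := zpowers (k : G)) (by simpa using k1)
  obtain ⟨w, hw, ow⟩ := BG.exists_mem_orderOf_eq hp d
  have p2' : Odd p := Odd.of_dvd_nat o (by rwa [Nat.card_zpowers] at d)
  have l : zpowers w ≤ X := (zpowers_le.2 hw).trans (zpowers_le.2 k.2)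
  obtain ⟨x, hx, f⟩ := exfix hp (P := zpowers w) (piGrp_of_card_prime hp (by rw [Nat.card_zpowers, ow]))
    (fun g hg => inv g (l hg)) fun d => by
      rw [c] at d
      rw [(Nat.prime_dvd_prime_iff_eq hp p2).1 (hp.dvd_of_dvd_pow d)] at p2'
      exact absurd p2' (by decide)
  obtain ⟨n, hn⟩ := mem_zpowers_sq (a := w) (ow ▸ p2')
  have hv : w ^ n ∈ zpowers w := zpow_mem_zpowers _ _
  have e2 : w ^ n * w ^ n = w := by rw [← (Commute.refl w).mul_zpow]; exact hn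
  have e3 := inv_zpowers e' _ (zpowers_le.2 hw hv)
  have e4 : (w ^ n)⁻¹ * t * (w ^ n)⁻¹⁻¹ = t * w := by
    rw [inv_inv, ← e3, mul_assoc, mul_assoc, inv_mul_cancel_left, mul_assoc, e2]
  have := u _ (inv_mem (l hv)) x hx (by rw [e4, mul_smul, fx_fix f (mem_zpowers w)])
  rw [e4, mul_eq_left] at this
  rw [this, orderOf_one] at ow
  exact hp.one_lt.ne ow

/-- in the sharp case fixed point free elements commute -/
theorem sharp2 (h : TT R Δ) (ha : a ∈ Δ) (hb : b ∈ Δ) (hab : a ≠ b)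
    (hs : ∀ g ∈ R, ∀ x ∈ Δ, ∀ y ∈ Δ, x ≠ y → g • x = x → g • y = y → ∀ u ∈ Δ, g • u = u)
    (hg : g ∈ R) (hk : k ∈ R) (fg : ∀ x ∈ Δ, g • x ≠ x) (fk : ∀ x ∈ Δ, k • x ≠ x) :
    ∀ u ∈ Δ, g • k • u = k • g • u := by
  letI : MulAction R Δ :=
    { smul g x := ⟨(g : G) • (x : Ω), h.inv g g.2 x x.2⟩
      one_smul x := Subtype.ext (one_smul G _)
      mul_smul g k x := Subtype.ext (mul_smul (g : G) k _) }
  let X := (toPermHom R Δ).range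
  have : Nontrivial Δ := ⟨⟨a, ha⟩, ⟨b, hb⟩, fun e => hab (congrArg Subtype.val e)⟩
  have sh : ∀ x y : Δ, x ≠ y → ∀ g : X, g • x = x → g • y = y → g = 1 := by
    rintro x y n ⟨_, g, rfl⟩ e1 e2
    exact Subtype.ext (Equiv.ext fun u => Subtype.ext (hs g g.2 x x.2 y y.2 (fun e => n (Subtype.ext e))
      (congrArg Subtype.val e1) (congrArg Subtype.val e2) u u.2))
  obtain ⟨N, nN, tN, rN, mN, cN, -⟩ := Perm.sharp2_kernel (G := X) (α := Δ)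
    (Perm.twoTrans_iff.2 fun x y x' y' n n' => by
      obtain ⟨g, hg, e1, e2⟩ := h.tr x x.2 y y.2 x' x'.2 y' y'.2 (fun e => n (Subtype.ext e)) fun e => n' (Subtype.ext e)
      exact ⟨⟨_, ⟨g, hg⟩, rfl⟩, Subtype.ext e1, Subtype.ext e2⟩) (Perm.sharp_two_iff.2 sh)
  intro u hu
  have m : ∀ g (hg : g ∈ R), (∀ x ∈ Δ, g • x ≠ x) → (⟨_, ⟨g, hg⟩, rfl⟩ : X) ∈ N := fun g hg f =>
    (mN _).2 (.inr fun x e => f x x.2 (congrArg Subtype.val e))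
  have := (Abel.of_comm cN).mul_comm (m g hg fg) (m k hk fk)
  exact congrArg (fun g : X => ((g • (⟨u, hu⟩ : Δ) : Δ) : Ω)) this

end CF.T2s
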