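import Cfsg.Agent.T2s.A

/-! Lemmas on elementary abelian 2-groups and groups acting on them. -/

set_option autoImplicit false
set_option linter.unusedSectionVars false

namespace CF.T2s

open MulAction Subgroup Cfsg CF.BG CF.GW CF.Small CF.Kf
open CF.Ab2 hiding Gd

variable {G : Type*} [Group G] [Finite G] {A B D H O S U V X Y : Subgroup G} {g k r s t τ : G}

theorem mem_sup_zp (n : t ∈ 𝐍 B) (e : t * t = 1) : g ∈ B ⊔ zpowers t ↔ g ∈ B ∨ g * t ∈ B := by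
  rw [mem_sup_norm' (zp_le_norm n)]
  constructor
  · rintro ⟨b, hb, c, hc, rfl⟩
    by_cases t1 : t = 1
    · subst t1; rw [zpowers_one_eq_bot, mem_bot] at hc; exact .inl (by simpa [hc] using hb)
    rcases (Iv.mk' t1 e).mem_zpowers.1 hc with rfl | rfl
    · exact .inl (by simpa using hb)
    · exact .inr (by rwa [mul_assoc, e, mul_one])
  · rintro (h | h)
    · exact ⟨g, h, 1, one_mem _, mul_one g⟩
    · exact ⟨_, h, t, mem_zpowers t, by rw [mul_assoc, e, mul_one]⟩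

theorem hyp_avoid (e : Abelem 2 A) (l : B ≤ A) (hr : r ∈ A) (n : r ∉ B) : ∃ V, Hyp V A ∧ B ≤ V ∧ r ∉ V := by
  have l' : B ⊔ zpowers r ≤ A := sup_le l (zpowers_le.2 hr)
  obtain ⟨C, d⟩ := e.exists_compl l'
  have r1 : r ≠ 1 := fun h => n (h ▸ one_mem _)
  have h := hyp_sup (D := B) (e.abel.le_norm l hr) (ab_iv e hr r1) n
  have nb : B ≤ 𝐍 C := l.trans (e.abel.le_norm d.right_le)
  have i : B ⊓ C = ⊥ := eq_bot_mono d.inf (inf_le_inf_right _ le_sup_left)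
  refine ⟨B ⊔ C, ⟨sup_le l d.right_le, by rw [← d.card, h.card, card_sup_of_inf_bot (.inl nb) i, mul_assoc]⟩,
    le_sup_left, fun m => ?_⟩
  obtain ⟨b, hb, c, hc, rfl⟩ := (mem_sup_norm nb).1 m
  have : c = 1 := eq_one_of_mem_bot d.inf ⟨(mul_mem_cancel_left (le_sup_left (b := zpowers (b * c)) hb)).1
    (le_sup_right (a := B) (mem_zpowers _)), hc⟩
  exact n (by simpa [this] using hb)

/-- a regular group on the nonidentity elements is transitive on the hyperplanes -/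
theorem hyp_tr (n : D ≤ 𝐍 S) (tr : Tr D S) (reg : ∀ k ∈ D, ∀ s ∈ S, s ≠ 1 → k * s * k⁻¹ = s → k = 1)
    (c4 : 4 ≤ ♯S) (hU : Hyp U S) (hV : Hyp V S) : ∃ k ∈ D, cj k U = V := by
  by_contra! ne
  have s : ∀ {A : Set G} (hA : A.Finite) {k : ℕ} {φ : G → ℕ}, (∀ σ ∈ A, φ σ = k) →
      ∑ σ ∈ hA.toFinset, φ σ = A.ncard * k := fun hA k φ e => by
    rw [Finset.sum_const_nat (m := k) fun σ hσ => e σ (hA.mem_toFinset.1 hσ), Set.ncard_eq_toFinset_card _ hA]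
  obtain ⟨u, hu, u1⟩ := exists_mem_ne_one (hU.ne_bot (by omega))
  have cD : ♯D + 1 = ♯S := by
    rw [← tr.card n (hU.le hu) u1, relIndex_of_inf_bot (eq_bot_of_forall fun k hk =>
      reg k hk.2 u (hU.le hu) u1 (conj_eq_of_comm (mem_cent1.1 hk.1)))]
  have h1 := hU.card
  have h2 := hV.card
  have h3 := Ab2.ncard_diff_one U
  have h4 := Ab2.ncard_diff_one V
  have key : ∀ k ∈ D, 2 * ({u ∈ (U : Set G) \ {1} | k * u * k⁻¹ ∈ V}.ncard + 1) = ♯U := fun k hk => by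
    have hW := hV.cj_of_norm (inv_mem (n hk))
    rw [(hW.inf hU.le fun l => ne k hk (by rw [hU.eq_of_le hW l, cj_cj_inv])).card, ← Ab2.ncard_diff_one]
    congr 3
    ext u
    simp only [Set.mem_ofPred, Set.mem_sdiff, SetLike.mem_coe, mem_inf, mem_cj_inv]
    tauto
  obtain ⟨M, hM⟩ : ∃ M, ♯U = 2 * (M + 1) := ⟨_, (key 1 (one_mem _)).symm⟩
  have e := sum_ncard (D : Set G) ((U : Set G) \ {1}) (Set.toFinite _) (Set.toFinite _) fun k u => k * u * k⁻¹ ∈ V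
  rw [s _ (k := M) fun k hk => by have := key k hk; omega, s _ (k := ((V : Set G) \ {1}).ncard) fun u hu => by
    refine Set.ncard_congr (fun k _ => k * u * k⁻¹) (fun k hk => ⟨hk.2, conj_ne_one hu.2 k⟩) (fun k k' hk hk' e => ?_)
      fun v hv => ?_
    · exact (inv_mul_eq_one.1 (reg _ (mul_mem (inv_mem hk'.1) hk.1) u (hU.le hu.1) hu.2 (by
        rw [show k'⁻¹ * k * u * (k'⁻¹ * k)⁻¹ = k'⁻¹ * (k * u * k⁻¹) * k' by group, e]; group))).symm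
    · obtain ⟨k, hk, e⟩ := tr u (hU.le hu.1) hu.2 v (hV.le hv.1) hv.2
      exact ⟨k, ⟨hk, e ▸ hv.1⟩, e⟩, ← Nat.card_coe_set_eq] at e
  change ♯D * M = _ at e
  rw [show ♯D = 4 * M + 3 by omega, show ((U : Set G) \ {1}).ncard = 2 * M + 1 by omega,
    show ((V : Set G) \ {1}).ncard = 2 * M + 1 by omega] at e
  nlinarith

theorem comm_fix (e : Abelem 2 S) (n : τ ∈ 𝐍 S) (q : τ * τ ∈ 𝐂 S) (hs : s ∈ S) : τ * s * τ⁻¹ * s ∈ S ⊓ 𝐂₁ τ := by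
  refine mi (mul_mem (conj_mem_of_norm n hs) hs) (mem_cent1.2 ?_)
  have h1 := q s hs
  have h2 := e.abel.mul_comm hs (conj_mem_of_norm n hs)
  calc _ = s * (τ * s * τ⁻¹) * τ := by rw [h2]
    _ = (s * (τ * τ)) * τ⁻¹ * s := by group
    _ = _ := by rw [h1]; group

/-- an involutory automorphism normalizing a transitive group acting semiregularly -/
theorem sq_lem (e : Abelem 2 S) (s1 : S ≠ ⊥) (n : τ ∈ 𝐍 S) (q : τ * τ = 1) (nc : τ ∉ 𝐂 S) (nY : τ ∈ 𝐍 Y)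
    (l : Y ≤ 𝐍 S) (tr : Tr Y S) (f : ∀ y ∈ Y, ∀ s ∈ S, s ≠ 1 → y ∈ 𝐂₁ s → y ∈ 𝐂 S) :
    ♯S = ♯(S ⊓ 𝐂₁ τ : Subgroup G) ^ 2 ∧ ∀ r ∈ S ⊓ 𝐂₁ τ, ∃ s ∈ S, s * τ * s⁻¹ = r * τ := by
  have q' : τ * τ ∈ 𝐂 S := q ▸ one_mem _
  have b1 : S ⊓ 𝐂₁ τ ≠ ⊥ := cent_zpowers τ ▸ (piGrp_zpowers.2 (e2_of_sq q)).inf_cent_ne_bot e.pi (zp_le_norm n) s1
  obtain ⟨y, hy, ny⟩ : ∃ y ∈ Y, τ * y * τ⁻¹ * y⁻¹ ∉ 𝐂 S := by
    by_contra! k
    refine nc (le_cent1_iff.1 (tr.eq_of_norm inf_le_left (le_norm_iff.2 fun y hy s hs => ?_) b1 ▸ inf_le_right))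
    refine ⟨conj_mem_of_norm (l hy) hs.1, mem_cent1_comm.1 (mem_cent1.2 (mul_inv_eq_iff_eq_mul.1 ?_))⟩
    have h1 := conj_eq_of_comm (k y hy _ (conj_mem_of_norm (l hy) hs.1)).symm
    have h2 := conj_eq_of_comm (mem_cent1.1 hs.2).symm
    calc _ = τ * y * τ⁻¹ * y⁻¹ * (y * (τ * s * τ⁻¹) * y⁻¹) * (τ * y * τ⁻¹ * y⁻¹)⁻¹ := by group
      _ = _ := by rw [h2, h1]
  have i : (S ⊓ 𝐂₁ τ) ⊓ cj y (S ⊓ 𝐂₁ τ) = ⊥ := eq_bot_of_forall fun s hs => by_contra fun s1 => by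
    refine ny (f _ (mul_mem (conj_mem_of_norm nY hy) (inv_mem hy)) s hs.1.1 s1
      (mem_cent1.2 (mul_inv_eq_iff_eq_mul.1 ?_)))
    obtain ⟨u, hu, rfl⟩ := mem_cj_iff.1 hs.2
    have h1 := conj_eq_of_comm (mem_cent1.1 hs.1.2).symm
    have h2 := conj_eq_of_comm (mem_cent1.1 (inv_mem (mem_cent1_comm.1 hu.2)))
    calc _ = τ * (y * (τ⁻¹ * u * τ⁻¹⁻¹) * y⁻¹) * τ⁻¹ := by group
      _ = _ := by rw [h2, h1]
  have c1 := card_sup_mul e.abel (B := S ⊓ 𝐂₁ τ) inf_le_left (cj_le_of_norm (l hy) (inf_le_left (b := 𝐂₁ τ)))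
  rw [i, card_bot, mul_one, card_cj, ← pow_two] at c1
  have c : ♯S = ♯(S ⊓ 𝐂₁ τ : Subgroup G) ^ 2 := le_antisymm (card_le_sq e.abel n e q')
    (c1 ▸ card_le (sup_le inf_le_left (cj_le_of_norm (l hy) inf_le_left)))
  refine ⟨c, fun r hr => ?_⟩
  have c2 := card_inf_mul_relIndex (𝐂₁ τ) S
  rw [← ncard_cls, inf_comm, c, pow_two] at c2
  have : cls S τ = (· * τ) '' (S ⊓ 𝐂₁ τ : Subgroup G) := Set.eq_of_subset_of_ncard_le (by
    rintro _ ⟨s, hs, rfl⟩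
    refine ⟨_, comm_fix e n q' hs, ?_⟩
    rw [← e.abel.mul_comm hs (conj_mem_of_norm n hs), ab_inv e hs, inv_eq_of_mul_eq_one_right q]
    simp only [mul_assoc, q, mul_one]) (by
      rw [Set.ncard_image_of_injective _ (mul_left_injective τ), Nat.eq_of_mul_eq_mul_left (card_pos' _) c2]; rfl)
  exact this.ge ⟨r, hr, rfl⟩

/-- the Brauer–Wielandt formula when all hyperplanes have centralizers of the same order -/
theorem bw (e : Abelem 2 S) (n : S ≤ 𝐍 O) (o : Od O) {ν : ℕ}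
    (h : ∀ U, Hyp U S → ♯(O ⊓ 𝐂 U : Subgroup G) = ♯(O ⊓ 𝐂 S : Subgroup G) * ν) (j : ℕ) :
    ∀ B ≤ S, ♯S = 2 ^ j * ♯B → ∀ E, 2 ^ j = E + 1 → ♯(O ⊓ 𝐂 B : Subgroup G) = ♯(O ⊓ 𝐂 S : Subgroup G) * ν ^ E := by
  induction j using Nat.strong_induction_on with | _ j ih =>
  intro B l c E hE
  rcases j with _ | _ | j
  · rw [eq_of_card_eq l (by omega), show E = 0 by omega, pow_zero, mul_one]
  · rw [h B ⟨l, by omega⟩, show E = 1 by omega, pow_one]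
  have p := card_pos' B
  have up : ∀ {B : Subgroup G} {j : ℕ} {r : G}, B ≤ S → ♯S = 2 ^ (j + 1) * ♯B → r ∈ S → r ∉ B →
      B ⊔ zpowers r ≤ S ∧ ♯S = 2 ^ j * ♯(B ⊔ zpowers r : Subgroup G) := fun l c hr n =>
    ⟨sup_le l (zpowers_le.2 hr), by
      rw [(hyp_sup (e.abel.le_norm l hr) (ab_iv e hr fun h => n (h ▸ one_mem _)) n).card, c]; ring⟩
  have ex : ∀ {B : Subgroup G} {j : ℕ}, B ≤ S → ♯S = 2 ^ (j + 1) * ♯B → ∃ r ∈ S, r ∉ B := fun {B j} l c => by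
    by_contra! k
    have := card_le (show S ≤ B from k)
    have := card_pos' B
    have := Nat.one_le_two_pow (n := j)
    nlinarith [pow_succ 2 j]
  obtain ⟨r, hr, r1⟩ := ex l c
  obtain ⟨l1, c1⟩ := up l c hr r1
  obtain ⟨s, hs, s1⟩ := ex l1 c1
  obtain ⟨l2, c2⟩ := up l1 c1 hs s1
  have s2 : s ∉ B := fun m => s1 (le_sup_left (b := zpowers r) m)
  have s3 : r * s ∉ B := fun m => s1 ((mul_mem_cancel_left (le_sup_right (a := B) (mem_zpowers r))).1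
    (le_sup_left (b := zpowers r) m))
  obtain ⟨F, hF⟩ : ∃ F, 2 ^ j = F + 1 := ⟨_, (Nat.sub_add_cancel Nat.one_le_two_pow).symm⟩
  have k : ∀ r ∈ S, r ∉ B → ♯((O ⊓ 𝐂 B) ⊓ 𝐂₁ r : Subgroup G) = ♯(O ⊓ 𝐂 S : Subgroup G) * ν ^ (2 * F + 1) :=
    fun r hr n => by
      rw [← ih (j + 1) (by omega) _ (up l c hr n).1 (up l c hr n).2 _ (by omega), cent_sup, cent_zpowers, inf_assoc]
  have nn : ∀ r ∈ S, r ∈ 𝐍 (O ⊓ 𝐂 B : Subgroup G) := fun r hr => norm_inf_cent n (e.abel.le_norm l) hr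
  have w := Recog.four_formula (ab_sq e hr) (ab_sq e hs) (e.abel.mul_comm hr hs) (fun h => r1 (h ▸ one_mem _))
    (fun h => s2 (h ▸ one_mem _)) (fun h => s1 (h ▸ le_sup_right (a := B) (mem_zpowers r))) (nn r hr) (nn s hs)
    (od_iff.2 o.inf_left)
  change ♯((O ⊓ 𝐂 B) ⊓ 𝐂₁ r : Subgroup G) * ♯((O ⊓ 𝐂 B) ⊓ 𝐂₁ s : Subgroup G) *
    ♯((O ⊓ 𝐂 B) ⊓ 𝐂₁ (r * s) : Subgroup G) = ♯(O ⊓ 𝐂 B : Subgroup G) *
      ♯((O ⊓ 𝐂 B) ⊓ (𝐂₁ r ⊓ 𝐂₁ s) : Subgroup G) ^ 2 at w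
  have k2 := ih j (by omega) _ l2 c2 F hF
  rw [cent_sup, cent_sup, cent_zpowers, cent_zpowers, inf_assoc, ← inf_assoc O] at k2
  have p2 := card_pos' ((O ⊓ 𝐂 B) ⊓ (𝐂₁ r ⊓ 𝐂₁ s) : Subgroup G)
  refine Nat.eq_of_mul_eq_mul_right (pow_pos p2 2) ?_
  rw [← w, k r hr r1, k s hs s2, k _ (mul_mem hr hs) s3, k2, show E = 4 * F + 3 by omega]
  ring

/-- a simple subgroup containing a Sylow 2-subgroup lies in a simple normal subgroup -/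
theorem minN (h0 : 𝒪 X = ⊥) (n : NS H) (l : H ≤ X) (hS : Syl 2 S X) (lS : S ≤ H) : ∃ N, N ⊴ X ∧ NS N ∧ H ≤ N := by
  obtain ⟨N, -, ⟨nN, N1⟩, mN⟩ := exists_minimal (P := fun N => N ⊴ X ∧ N ≠ ⊥) ⟨.refl X, ne_bot_mono n.ne l⟩
  have key : ∀ K, K ⊴ N → K ≠ ⊥ → H ≤ 𝐍 K → H ≤ K := fun K nK K1 m => by
    have s := (hS.inf_normal nN).inf_normal nK
    have : S ⊓ N ⊓ K ≠ ⊥ := fun e => K1 (eq_bot_mono h0
      ((le_O nK (e ▸ s).pi'_of_eq_bot).trans (O_le_O_of_normal nN _)))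
    exact inf_eq_left.1 ((n.eq_or _ (normalIn_inf_left m)).resolve_left
      (ne_bot_mono this (inf_le_inf_right _ (inf_le_left.trans lS))))
  have lN := key N (.refl N) N1 (l.trans nN.norm)
  have key' : ∀ K, K ⊴ N → K ≠ ⊥ → H ≤ K := fun K nK K1 => key K nK K1 (lN.trans nK.norm)
  have sim : ∀ K, K ⊴ N → K = ⊥ ∨ K = N := fun K nK => or_iff_not_imp_left.2 fun K1 => by
    obtain ⟨M, lM, ⟨nM, M1⟩, mM⟩ := exists_minimal (P := fun M => M ⊴ N ∧ M ≠ ⊥) ⟨nK, K1⟩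
    have : M ⊴ X := ⟨nM.le.trans nN.le, le_norm_of_cj_le fun g hg => by
      have n' : cj g⁻¹ M ⊴ N := cj_of_norm (inv_mem (nN.norm hg)) ▸ nM.cj g⁻¹
      exact cj_le_iff.2 (inf_eq_left.1 (mM _ ⟨nM.inf n', ne_bot_mono n.ne
        (le_inf (key' M nM M1) (key' _ n' (mt cj_eq_bot.1 M1)))⟩ inf_le_left))⟩
    exact le_antisymm nK.le (mN M ⟨this, M1⟩ nM.le ▸ lM)
  exact ⟨N, nN, ⟨N1, (sim _ (der_normal N)).resolve_left (ne_bot_mono n.ne (n.perf.ge.trans (der_mono lN))), sim⟩, lN⟩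

end CF.T2s
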